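import Cfsg.Agent.H71.Dl.Height
import Cfsg.Prelude.Def_LieTwisted

/-!
# The derived length of the Sylow `r`-subgroups of the exceptional groups in characteristic `r` (S4769, DL-HEIGHT)

`K` is a finite field of characteristic `r`.

* `dl_chevG2` (3), `dl_chevG2_three` (2, `r = 3`), `dl_chevD4` (3), `dl_chevF4` (4), `dl_chevE6` (4), `dl_chevE7` (5),
  `dl_chevE8` (5), `dl_twistedE6` (4), `dl_twistedD4` (3), `dl_twistedF4` (4);
* `dl_eq_G2`, `dl_eq_G2_three`, `dl_eq_F4`, `dl_eq_E6`, `dl_eq_E7`, `dl_eq_E8`, `dl_eq_2E6`, `dl_eq_3D4`, `dl_eq_2F4` : the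
  same for a group `S` isomorphic to the group;
* `dl_tits` : the Tits group (4).
-/

set_option autoImplicit false
set_option linter.unusedSectionVars false

namespace Cfsg.Agent.H71.Dl

open Cfsg Cfsg.Lie Cfsg.Agent.ChevalleyStructure.CoxeterGeomTypes
open Cfsg.Agent.Nodes.RGDChev Cfsg.Agent.H246.Dl

universe u

theorem htG2 : HtLt chevG2 2 (2 ^ 3) := by decide +kernel
theorem htD4 : HtLt chevD4 4 (2 ^ 3) := by decide +kernel
theorem htF4 : HtLt chevF4 4 (2 ^ 4) := by decide +kernel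
theorem htE6 : HtLt chevE6 6 (2 ^ 4) := by decide +kernel
theorem htE7 : HtLt chevE7 7 (2 ^ 5) := by decide +kernel
theorem htE8 : HtLt chevE8 8 (2 ^ 5) := by decide +kernel
theorem trivG2 : CommTriv chevG2 2 3 := by decide +kernel

theorem hpG2 : IsType chevG2 2 CoxeterMatrix.G₂ := by simp [IsType, typeList]
theorem hpD4 : IsType chevD4 4 coxeterD4 := by simp [IsType, typeList]
theorem hpF4 : IsType chevF4 4 CoxeterMatrix.F₄ := by simp [IsType, typeList]
theorem hpE6 : IsType chevE6 6 CoxeterMatrix.E₆ := by simp [IsType, typeList]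
theorem hpE7 : IsType chevE7 7 CoxeterMatrix.E₇ := by simp [IsType, typeList]
theorem hpE8 : IsType chevE8 8 CoxeterMatrix.E₈ := by simp [IsType, typeList]

section Chev

variable (K : Type u) [Field K] [Finite K] (r : ℕ) [Fact r.Prime] [CharP K r]

theorem dl_chevG2 : DlLe r 3 ↥(chevG2.group K) := dlLe_chev hpG2 K r htG2
theorem dl_chevD4 : DlLe r 3 ↥(chevD4.group K) := dlLe_chev hpD4 K r htD4
theorem dl_chevF4 : DlLe r 4 ↥(chevF4.group K) := dlLe_chev hpF4 K r htF4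
theorem dl_chevE6 : DlLe r 4 ↥(chevE6.group K) := dlLe_chev hpE6 K r htE6
theorem dl_chevE7 : DlLe r 5 ↥(chevE7.group K) := dlLe_chev hpE7 K r htE7
theorem dl_chevE8 : DlLe r 5 ↥(chevE8.group K) := dlLe_chev hpE8 K r htE8

theorem dl_twistedE6 (q : ℕ) : DlLe r 4 ↥(twistedE6 K q) :=
  dlLe_of_le (genSubgroup_le_group hpE6 _) (dl_chevE6 K r)

theorem dl_twistedD4 (q : ℕ) : DlLe r 3 ↥(twistedD4 K q) :=
  dlLe_of_le (genSubgroup_le_group hpD4 _) (dl_chevD4 K r)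

theorem dl_twistedF4 (e : ℕ) : DlLe r 4 ↥(twistedF4 K e) :=
  dlLe_of_le (genSubgroup_le_group hpF4 _) (dl_chevF4 K r)

end Chev

theorem dl_chevG2_three (K : Type u) [Field K] [Finite K] [CharP K 3] : DlLe 3 2 ↥(chevG2.group K) := by
  have : Fact (Nat.Prime 3) := ⟨Nat.prime_three⟩
  exact dlLe_two_chev hpG2 K 3 trivG2

/-! ### Groups isomorphic to these groups -/

section Iso

variable {S : Type*} [Group S] [Finite S] {K : Type u} [Field K] [Finite K] {r : ℕ} [Fact r.Prime] [CharP K r]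

theorem dl_eq_G2 (e : S ≃* ↥(chevG2.group K)) : DlLe r 3 S := (dl_chevG2 K r).of_equiv e
theorem dl_eq_F4 (e : S ≃* ↥(chevF4.group K)) : DlLe r 4 S := (dl_chevF4 K r).of_equiv e
theorem dl_eq_E6 (e : S ≃* ↥(chevE6.group K)) : DlLe r 4 S := (dl_chevE6 K r).of_equiv e
theorem dl_eq_E7 (e : S ≃* ↥(chevE7.group K)) : DlLe r 5 S := (dl_chevE7 K r).of_equiv e
theorem dl_eq_E8 (e : S ≃* ↥(chevE8.group K)) : DlLe r 5 S := (dl_chevE8 K r).of_equiv e
theorem dl_eq_2E6 {q : ℕ} (e : S ≃* ↥(twistedE6 K q)) : DlLe r 4 S := (dl_twistedE6 K r q).of_equiv e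
theorem dl_eq_3D4 {q : ℕ} (e : S ≃* ↥(twistedD4 K q)) : DlLe r 3 S := (dl_twistedD4 K r q).of_equiv e

omit [Fact r.Prime] [CharP K r] in
theorem dl_eq_G2_three [CharP K 3] (e : S ≃* ↥(chevG2.group K)) : DlLe 3 2 S := by
  have : Fact (Nat.Prime 3) := ⟨Nat.prime_three⟩
  exact (dl_chevG2_three K).of_equiv e

end Iso

theorem charP_two_of_card {K : Type*} [Field K] [Fintype K] {m : ℕ} (h : Fintype.card K = 2 ^ m) : CharP K 2 := by
  obtain ⟨p, hp⟩ := CharP.exists K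
  obtain ⟨n, hpr, hn⟩ := FiniteField.card K p
  have h1 : p ∣ 2 ^ m := by
    rw [← h, hn]
    exact dvd_pow_self p n.ne_zero
  have h2 : p = 2 := (Nat.prime_dvd_prime_iff_eq hpr Nat.prime_two).1 (hpr.dvd_of_dvd_pow h1)
  rw [← h2]
  exact hp

theorem dl_eq_2F4 {S : Type*} [Group S] [Finite S] (h : Lie.Iso2F4 S) : DlLe 2 4 S := by
  have : Fact (Nat.Prime 2) := ⟨Nat.prime_two⟩
  obtain ⟨K, _, _, m, -, hK, ⟨e⟩⟩ := h
  have := charP_two_of_card hK
  exact (dl_twistedF4 K 2 (2 ^ m)).of_equiv e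

set_option maxRecDepth 4000 in
theorem dl_tits {S : Type*} [Group S] [Finite S] (h : Lie.IsoTits S) : DlLe 2 4 S := by
  obtain ⟨e⟩ := h
  have h1 : DlLe 2 4 ↥(twistedF4 (ZMod 2) 1) := dl_twistedF4 (ZMod 2) 2 1
  have h2 : DlLe 2 4 TitsGroup := dlLe_of_subgroup h1 _
  exact @DlLe.of_equiv 2 S _ TitsGroup _ _ 4 _ e h2

end Cfsg.Agent.H71.Dl
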