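import Cfsg.Agent.Nodes.RGDChev
import Cfsg.Agent.KFacts.RgdSyl
import Cfsg.Agent.Nodes.Bruhat
import Cfsg.Agent.H246.Dl.Defs

/-!
# The derived length of `U` from the heights of the roots (S4769, task DL-HEIGHT)

* `commutator_sup_le`, `derived_le` : the derived series of a group generated by root groups;
* `DlLe.pgroup` : `DlLe p d S` bounds the derived length of all `p`-subgroups; `DlLe.of_le`;
* `dlLe_of_sets`, `dlLe_of_height` : `DlLe p d Y` for a root group datum on `Y`;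
* `dlLe_chev` : the Chevalley groups, largest height less than `2 ^ d`.
-/

set_option autoImplicit false
set_option linter.unusedSectionVars false

namespace Cfsg.Agent.H71.Dl

open CoxeterSystem Cfsg.Agent.ChevalleyStructure.CoxeterGeom Cfsg.Agent.Tits.Roots Cfsg.Agent.Tits.Core
  Cfsg.Agent.Tits.RootComb Cfsg.Agent.Nodes.Comb Cfsg.Agent.Nodes.Reps Cfsg.Agent.Nodes.BNOf
  Cfsg.Agent.Nodes.Bruhat
open Cfsg.Agent.H246.Dl
open scoped commutatorElement

/-! ### General groups -/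

section General

variable {Y ι : Type*} [Group Y] {X : ι → Subgroup Y}

/-- The commutator subgroup of a join of subgroups. -/
theorem commutator_sup_le {S : Set ι} {V : Subgroup Y}
    (hN : ∀ x ∈ S, X x ≤ Subgroup.normalizer (V : Set Y))
    (hc : ∀ x ∈ S, ∀ y ∈ S, ∀ a ∈ X x, ∀ b ∈ X y, ⁅a, b⁆ ∈ V) :
    ⁅(⨆ z : S, X z.1), (⨆ z : S, X z.1)⁆ ≤ V := by
  have hN' : (⨆ z : S, X z.1) ≤ Subgroup.normalizer (V : Set Y) := iSup_le fun z => hN z.1 z.2
  have hconj : ∀ g ∈ (⨆ z : S, X z.1), ∀ v ∈ V, g * v * g⁻¹ ∈ V := fun g hg v hv =>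
    (Subgroup.mem_normalizer_iff.1 (hN' hg) v).1 hv
  -- first variable in the join, second in a root group
  have h1 : ∀ y ∈ S, ∀ b ∈ X y, ∀ a ∈ (⨆ z : S, X z.1), ⁅a, b⁆ ∈ V := by
    intro y hy b hb a ha
    have key : a ∈ (⨆ z : S, X z.1) ∧ ⁅a, b⁆ ∈ V := by
      refine Subgroup.iSup_induction (fun z : S => X z.1)
        (C := fun a => a ∈ (⨆ z : S, X z.1) ∧ ⁅a, b⁆ ∈ V) ha ?_ ?_ ?_
      · intro z a ha
        exact ⟨(le_iSup (fun z : S => X z.1) z) ha, hc z.1 z.2 y hy a ha b hb⟩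
      · exact ⟨one_mem _, by rw [commutatorElement_one_left]; exact one_mem _⟩
      · rintro a a' ⟨ha, hab⟩ ⟨ha', hab'⟩
        refine ⟨mul_mem ha ha', ?_⟩
        have e : ⁅a * a', b⁆ = a * ⁅a', b⁆ * a⁻¹ * ⁅a, b⁆ := by
          simp only [commutatorElement_def]; group
        rw [e]
        exact mul_mem (hconj a ha _ hab') hab
    exact key.2
  rw [Subgroup.commutator_le]
  intro a ha b hb
  have key : b ∈ (⨆ z : S, X z.1) ∧ ⁅a, b⁆ ∈ V := by
    refine Subgroup.iSup_induction (fun z : S => X z.1)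
      (C := fun b => b ∈ (⨆ z : S, X z.1) ∧ ⁅a, b⁆ ∈ V) hb ?_ ?_ ?_
    · intro z b hb
      exact ⟨(le_iSup (fun z : S => X z.1) z) hb, h1 z.1 z.2 b hb a ha⟩
    · exact ⟨one_mem _, by rw [commutatorElement_one_right]; exact one_mem _⟩
    · rintro b b' ⟨hb, hab⟩ ⟨hb', hab'⟩
      refine ⟨mul_mem hb hb', ?_⟩
      have e : ⁅a, b * b'⁆ = ⁅a, b⁆ * (b * ⁅a, b'⁆ * b⁻¹) := by
        simp only [commutatorElement_def]; group
      rw [e]
      exact mul_mem hab (hconj b hb _ hab')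
  exact key.2

/-- The step: if `V = ⟨X z : z ∈ S'⟩` with `S' ⊆ S` contains the commutators. -/
theorem commutator_sup_le' {S S' : Set ι} (hS : S' ⊆ S)
    (hc : ∀ x ∈ S, ∀ y ∈ S, ∀ a ∈ X x, ∀ b ∈ X y, ⁅a, b⁆ ∈ (⨆ z : S', X z.1)) :
    ⁅(⨆ z : S, X z.1), (⨆ z : S, X z.1)⁆ ≤ (⨆ z : S', X z.1) := by
  refine commutator_sup_le ?_ hc
  -- `X x` normalises `V`
  have hconj : ∀ x ∈ S, ∀ a ∈ X x, ∀ v ∈ (⨆ z : S', X z.1), a * v * a⁻¹ ∈ (⨆ z : S', X z.1) := by
    intro x hx a ha v hv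
    refine Subgroup.iSup_induction (fun z : S' => X z.1)
      (C := fun v => a * v * a⁻¹ ∈ (⨆ z : S', X z.1)) hv ?_ ?_ ?_
    · intro z v hv
      have e : a * v * a⁻¹ = ⁅a, v⁆ * v := by simp only [commutatorElement_def]; group
      rw [e]
      exact mul_mem (hc x hx z.1 (hS z.2) a ha v hv) ((le_iSup (fun z : S' => X z.1) z) hv)
    · rw [mul_one, mul_inv_cancel]; exact one_mem _
    · intro v v' h1 h2
      have e : a * (v * v') * a⁻¹ = (a * v * a⁻¹) * (a * v' * a⁻¹) := by group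
      rw [e]
      exact mul_mem h1 h2
  intro x hx a ha
  rw [Subgroup.mem_normalizer_iff]
  intro v
  refine ⟨hconj x hx a ha v, fun h => ?_⟩
  have h2 := hconj x hx a⁻¹ (inv_mem ha) _ h
  have e : a⁻¹ * (a * v * a⁻¹) * a⁻¹⁻¹ = v := by group
  rwa [e] at h2

/-- The derived series of a group generated by root groups. -/
theorem derived_le (S : ℕ → Set ι) (hS : ∀ k, S (k + 1) ⊆ S k)
    (hc : ∀ k, ∀ x ∈ S k, ∀ y ∈ S k, ∀ a ∈ X x, ∀ b ∈ X y, ⁅a, b⁆ ∈ (⨆ z : S (k + 1), X z.1))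
    {U : Subgroup Y} (hU : U ≤ (⨆ z : S 0, X z.1)) (k : ℕ) :
    (derivedSeries U k).map U.subtype ≤ (⨆ z : S k, X z.1) := by
  induction k with
  | zero =>
    rw [derivedSeries_zero]
    exact (Subgroup.map_subtype_le _).trans hU
  | succ k ih =>
    rw [derivedSeries_succ, Subgroup.map_commutator]
    exact (Subgroup.commutator_mono ih ih).trans (commutator_sup_le' (hS k) (hc k))

end General

/-! ### `DlLe` -/

section DlLe

universe u v

variable {p d : ℕ} {S : Type u} [Group S]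

theorem derivedSeries_of_injective {G H : Type*} [Group G] [Group H] {f : G →* H}
    (hf : Function.Injective f) {d : ℕ} (h : derivedSeries H d = ⊥) : derivedSeries G d = ⊥ := by
  have h1 := map_derivedSeries_le_derivedSeries f d
  rw [h, le_bot_iff] at h1
  rwa [Subgroup.map_eq_bot_iff_of_injective _ hf] at h1

/-- `DlLe` bounds the derived length of all `p`-subgroups. -/
theorem pgroup_of_dlLe (h : DlLe p d S) (Q : Subgroup S) (hQ : IsPGroup p Q) : derivedSeries Q d = ⊥ := by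
  obtain ⟨P, hP⟩ := hQ.exists_le_sylow
  exact derivedSeries_of_injective (Subgroup.inclusion_injective hP) (h P)

/-- `DlLe` from one Sylow subgroup. -/
theorem dlLe_of_sylow [Fact p.Prime] [Finite S] (P : Sylow p S) (h : derivedSeries (P : Subgroup S) d = ⊥) :
    DlLe p d S := fun Q =>
  derivedSeries_of_injective (f := (Q.equiv P).toMonoidHom) (Q.equiv P).injective h

/-- `DlLe` through an injective homomorphism. -/
theorem dlLe_of_injective {S' : Type v} [Group S'] {f : S →* S'} (hf : Function.Injective f) (h : DlLe p d S') :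
    DlLe p d S :=
  DlLe.of_hom f (fun g hg _ => hf (by rw [hg, map_one])) fun Q hQ => pgroup_of_dlLe h Q hQ

/-- `DlLe` for subgroups. -/
theorem dlLe_of_le {H K : Subgroup S} (hHK : H ≤ K) (h : DlLe p d K) : DlLe p d H :=
  dlLe_of_injective (Subgroup.inclusion_injective hHK) h

theorem dlLe_of_subgroup (h : DlLe p d S) (H : Subgroup S) : DlLe p d H :=
  dlLe_of_injective (f := H.subtype) H.subtype_injective h

end DlLe

/-! ### Root group data -/

section RGD

variable {I W Y : Type*} [Fintype I] [DecidableEq I] [Group W] [Group Y] {M : CoxeterMatrix I}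
  {cs : CoxeterSystem M W} {A : I → I → ℤ} {h : IsCartan M A} {p : ℕ} {T : Subgroup Y} {n : I → Y}
  {X : (I → ℤ) → Subgroup Y}

/-- The derived length of a Sylow `p`-subgroup from a chain of sets of positive roots. -/
theorem dlLe_of_sets (R : RGD cs h p T n X) [Finite W] [Finite Y] [Fact p.Prime] (hG : GG cs h T X = ⊤)
    (S : ℕ → Set (I → ℤ)) (h0 : RGD.Pos cs h ⊆ S 0) (hS : ∀ k, S (k + 1) ⊆ S k)
    (hc : ∀ k, ∀ x ∈ S k, ∀ y ∈ S k, ∀ a ∈ X x, ∀ b ∈ X y, ⁅a, b⁆ ∈ RGD.Sup X (S (k + 1)))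
    {d : ℕ} (hd : S d = ∅) : DlLe p d Y := by
  obtain ⟨P, hP⟩ : ∃ P : Sylow p Y, (P : Subgroup Y) = RGD.Sup X (RGD.Pos cs h) := by
    have h1 := KFacts.RgdSyl.not_dvd_relIndex R
    rw [hG, Subgroup.relIndex_top_right] at h1
    exact ⟨R.isPGroup_Upos.toSylow h1, rfl⟩
  refine dlLe_of_sylow P ?_
  have h1 := derived_le (U := (P : Subgroup Y)) S hS hc (by rw [hP]; exact RGD.Sup_mono h0) d
  have h2 : (⨆ z : S d, X z.1) = ⊥ := by
    rw [hd, iSup_eq_bot]
    rintro ⟨z, hz⟩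
    exact absurd hz (Set.notMem_empty z)
  rw [h2, le_bot_iff, Subgroup.map_eq_bot_iff_of_injective _ (Subgroup.subtype_injective _)] at h1
  exact h1

/-- **The derived length of a Sylow `p`-subgroup of a group with a root group datum with abelian root groups** is at
most `d` if the heights of the positive roots are less than `2 ^ d`. -/
theorem dlLe_of_height (R : RGD cs h p T n X) [Finite W] [Finite Y] [Fact p.Prime] (hG : GG cs h T X = ⊤)
    (hab : ∀ x ∈ RGD.Pos cs h, ∀ a ∈ X x, ∀ b ∈ X x, a * b = b * a)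
    (hcomm : ∀ x ∈ RGD.Pos cs h, ∀ y ∈ RGD.Pos cs h, x ≠ y → ∀ a ∈ X x, ∀ b ∈ X y,
      ⁅a, b⁆ ∈ RGD.Sup X {z | z ∈ RGD.Pos cs h ∧ ht x + ht y ≤ ht z})
    {d : ℕ} (hd : ∀ x ∈ RGD.Pos cs h, ht x < 2 ^ d) : DlLe p d Y := by
  refine dlLe_of_sets R hG (fun k => {z | z ∈ RGD.Pos cs h ∧ 2 ^ k ≤ ht z}) ?_ ?_ ?_ ?_
  · intro x hx
    refine ⟨hx, ?_⟩
    have := RGD.ht_pos hx.1 hx.2
    rw [pow_zero]
    exact this
  · rintro k x ⟨hx, hk⟩
    refine ⟨hx, le_trans ?_ hk⟩
    exact pow_le_pow_right₀ (by norm_num) (Nat.le_succ k)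
  · rintro k x ⟨hx, hxk⟩ y ⟨hy, hyk⟩ a ha b hb
    by_cases hxy : x = y
    · subst hxy
      rw [commutatorElement_eq_one_iff_mul_comm.2 (hab x hx a ha b hb)]
      exact one_mem _
    · refine RGD.Sup_mono ?_ (hcomm x hx y hy hxy a ha b hb)
      rintro z ⟨hz, hzh⟩
      refine ⟨hz, ?_⟩
      rw [pow_succ]
      linarith
  · rw [Set.eq_empty_iff_forall_notMem]
    rintro x ⟨hx, hk⟩
    exact absurd (hd x hx) (not_lt.2 hk)

end RGD

/-! ### The Chevalley groups -/

section Chev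

open Cfsg Cfsg.Lie Cfsg.Agent.ChevalleyStructure Cfsg.Agent.ChevalleyStructure.Elts
  Cfsg.Agent.ChevalleyStructure.RootVec Cfsg.Agent.ChevalleyStructure.RootVecTab
  Cfsg.Agent.ChevalleyStructure.NPerm Cfsg.Agent.ChevalleyStructure.CoxeterGeomTypes
open Cfsg.Agent.Nodes.RGDChev

universe u

variable {D : ChevalleyDatum} {l : ℕ} {M : CoxeterMatrix (Fin l)} {W : Type*} [Group W]
  {K : Type u} [Field K]

/-- The root groups of `D.group K`. -/
abbrev XX (D : ChevalleyDatum) (l : ℕ) (K : Type u) [Field K] (x : Fin l → ℤ) : Subgroup ↥(D.group K) :=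
  (XV D l K x).subgroupOf (D.group K)

theorem mem_XX (hp : IsType D l M) {r : ℕ} (hr : r < D.nroots) {a : ↥(D.group K)} :
    a ∈ XX D l K (vec D l r) ↔ ∃ t : K, (a : GL D.Idx K) = xG hp.inList r t := by
  rw [Subgroup.mem_subgroupOf, XV_vec hp K hr, mem_rootSubgroup_iff hp.inList]

/-- The commutator of two root groups lies in the join of the root groups of the terms of the commutator formula. -/
theorem comm_mem_sup (hp : IsType D l M) {r s : ℕ} (hr : r < D.nroots) (hs : s < D.nroots) (hne : s ≠ r)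
    (hneg : s ≠ D.neg r) {S : Set (Fin l → ℤ)}
    (hS : ∀ c ∈ D.commTerms r s, (c.2.1 : K) = 0 ∨ vec D l c.1 ∈ S)
    {a b : ↥(D.group K)} (ha : a ∈ XX D l K (vec D l s)) (hb : b ∈ XX D l K (vec D l r)) :
    ⁅a, b⁆ ∈ RGD.Sup (XX D l K) S := by
  obtain ⟨u, hu⟩ := (mem_XX hp hs).1 ha
  obtain ⟨t, ht⟩ := (mem_XX hp hr).1 hb
  have e : ((⁅a, b⁆ : ↥(D.group K)) : GL D.Idx K) = wordG hp.inList (D.commWord K r s (-t) (-u)) := by
    rw [← comm_xG hp hr hs hne hneg, xG_inv, xG_inv, _root_.neg_neg, _root_.neg_neg]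
    simp only [commutatorElement_def, Subgroup.coe_mul, Subgroup.coe_inv, hu, ht]
  have h1 : ((⁅a, b⁆ : ↥(D.group K)) : GL D.Idx K) ∈ (RGD.Sup (XX D l K) S).map (D.group K).subtype := by
    rw [e]
    refine wordG_mem hp _ _ ?_
    intro c hc
    have hc' : c ∈ (D.commTerms r s).map fun c => (c.1, (c.2.1 : K) * (- -t) ^ c.2.2.1 * (-u) ^ c.2.2.2) := hc
    rw [List.mem_map] at hc'
    obtain ⟨⟨v, C, i, j⟩, hv, rfl⟩ := hc'
    obtain ⟨hv1, -⟩ := commTerms_rt hp.checked hv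
    rcases hS _ hv with h0 | h0
    · have h2 : ((C : K) * (- -t) ^ i * (-u) ^ j) = 0 := by
        have h3 : (C : K) = 0 := h0
        rw [h3, zero_mul, zero_mul]
      show xG hp.inList v ((C : K) * (- -t) ^ i * (-u) ^ j) ∈ _
      rw [h2, xG_zero]
      exact one_mem _
    · refine ⟨⟨xG hp.inList v ((C : K) * (- -t) ^ i * (-u) ^ j), xG_mem_group hp.inList v _⟩, ?_, rfl⟩
      exact RGD.le_Sup (X := XX D l K) h0 ((mem_XX hp hv1).2 ⟨_, rfl⟩)
  obtain ⟨c, hc, hce⟩ := h1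
  have h2 : c = ⁅a, b⁆ := Subtype.ext hce
  rwa [h2] at hc

theorem comm_self (hp : IsType D l M) {r : ℕ} (hr : r < D.nroots) {a b : ↥(D.group K)}
    (ha : a ∈ XX D l K (vec D l r)) (hb : b ∈ XX D l K (vec D l r)) : a * b = b * a := by
  obtain ⟨u, hu⟩ := (mem_XX hp hr).1 ha
  obtain ⟨t, ht⟩ := (mem_XX hp hr).1 hb
  apply Subtype.ext
  rw [Subgroup.coe_mul, Subgroup.coe_mul, hu, ht, xG_add, xG_add, add_comm]

/-- The heights of the roots of `D` which are nonnegative are less than `N`. -/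
def HtLt (D : ChevalleyDatum) (l N : ℕ) : Prop :=
  ∀ r < D.nroots, (∑ i : Fin l, rt D r i) < N

instance (D : ChevalleyDatum) (l N : ℕ) : Decidable (HtLt D l N) := by
  unfold HtLt; infer_instance

/-- The commutator of two positive root groups, heights. -/
theorem comm_mem_ht (hp : IsType D l M) (cs : CoxeterSystem M W) {x y : Fin l → ℤ}
    (hx : x ∈ RGD.Pos cs hp.isCartan) (hy : y ∈ RGD.Pos cs hp.isCartan) (hxy : x ≠ y) {a b : ↥(D.group K)}
    (ha : a ∈ XX D l K x) (hb : b ∈ XX D l K y) :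
    ⁅a, b⁆ ∈ RGD.Sup (XX D l K) {z | z ∈ RGD.Pos cs hp.isCartan ∧ ht x + ht y ≤ ht z} := by
  obtain ⟨hx, hx0⟩ := hx
  obtain ⟨hy, hy0⟩ := hy
  have hxh := RGD.ht_pos hx hx0
  have hyh := RGD.ht_pos hy hy0
  obtain ⟨s, hs, rfl⟩ := (isRoot_iff hp cs x).1 hx
  obtain ⟨r, hr, rfl⟩ := (isRoot_iff hp cs y).1 hy
  have hne : s ≠ r := fun h => hxy (by rw [h])
  have hneg : s ≠ D.neg r := by
    intro h
    rw [h, vec_neg hp hr] at hx0
    have h1 : vec D l r = 0 := le_antisymm (by simpa using hx0) hy0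
    rw [h1] at hyh
    simp [ht] at hyh
  refine comm_mem_sup hp hr hs hne hneg ?_ ha hb
  rintro ⟨v, C, i, j⟩ hv
  obtain ⟨hv1, -, -, hi, hj, hvec⟩ := commTerms_rt hp.checked hv
  have hvv : vec D l v = (i : ℤ) • vec D l r + (j : ℤ) • vec D l s := by
    funext k
    rw [vec_apply, hvec, Pi.add_apply, Pi.smul_apply, Pi.smul_apply, smul_eq_mul, smul_eq_mul, vec_apply,
      vec_apply]
  refine Or.inr ⟨⟨isRoot_vec hp cs hv1, ?_⟩, ?_⟩
  · show 0 ≤ vec D l v
    rw [hvv]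
    exact add_nonneg (smul_nonneg (by positivity) hy0) (smul_nonneg (by positivity) hx0)
  · show ht (vec D l s) + ht (vec D l r) ≤ ht (vec D l v)
    rw [hvv, RGD.ht_add, RGD.ht_smul, RGD.ht_smul]
    have hi' : (1 : ℤ) ≤ i := by exact_mod_cast hi
    have hj' : (1 : ℤ) ≤ j := by exact_mod_cast hj
    nlinarith

theorem GG_XX (hp : IsType D l M) (cs : CoxeterSystem M W) :
    GG cs hp.isCartan ((D.diagonalSubgroup K).subgroupOf (D.group K)) (XX D l K) = ⊤ := by
  have hG1 := G1_eq_top (K := K) hp cs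
  rw [eq_top_iff, ← hG1]
  exact le_sup_right

/-- **The Chevalley groups in their own characteristic.** -/
theorem dlLe_chev (hp : IsType D l M) (K : Type u) [Field K] [Finite K] (p : ℕ) [Fact p.Prime] [CharP K p] {d : ℕ}
    (hN : HtLt D l (2 ^ d)) : DlLe p d ↥(D.group K) := by
  have : Finite M.Group := finite_W hp M.toCoxeterSystem
  refine dlLe_of_height (rgd (K := K) hp M.toCoxeterSystem p) (GG_XX hp _) ?_
    (fun x hx y hy hxy a ha b hb => comm_mem_ht hp _ hx hy hxy ha hb) ?_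
  · rintro x ⟨hx, -⟩ a ha b hb
    obtain ⟨r, hr, rfl⟩ := (isRoot_iff hp M.toCoxeterSystem x).1 hx
    exact comm_self hp hr ha hb
  · rintro x ⟨hx, -⟩
    obtain ⟨s, hs, rfl⟩ := (isRoot_iff hp M.toCoxeterSystem x).1 hx
    have := hN s hs
    exact_mod_cast this

/-- The terms of the commutator formula for two roots of height at least two are divisible by `p`. -/
def CommTriv (D : ChevalleyDatum) (l p : ℕ) : Prop :=
  ∀ r < D.nroots, ∀ s < D.nroots, 2 ≤ (∑ i : Fin l, rt D r i) → 2 ≤ (∑ i : Fin l, rt D s i) →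
    ∀ c ∈ D.commTerms r s, (p : ℤ) ∣ c.2.1

instance (D : ChevalleyDatum) (l p : ℕ) : Decidable (CommTriv D l p) := by
  unfold CommTriv; infer_instance

/-- The metabelian case. -/
theorem dlLe_two_chev (hp : IsType D l M) (K : Type u) [Field K] [Finite K] (p : ℕ) [Fact p.Prime] [CharP K p]
    (hN : CommTriv D l p) : DlLe p 2 ↥(D.group K) := by
  have : Finite M.Group := finite_W hp M.toCoxeterSystem
  let S : ℕ → Set (Fin l → ℤ) := fun k => {z | z ∈ RGD.Pos M.toCoxeterSystem hp.isCartan ∧ (1 ≤ k → 2 ≤ ht z) ∧ k < 2}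
  refine dlLe_of_sets (rgd (K := K) hp M.toCoxeterSystem p) (GG_XX hp _) S ?_ ?_ ?_ ?_
  · intro z hz
    exact ⟨hz, fun h => absurd h (by norm_num), by norm_num⟩
  · rintro k z ⟨h1, h2, h3⟩
    exact ⟨h1, fun _ => h2 (by omega), by omega⟩
  · rintro k x ⟨hx, hx1, hk⟩ y ⟨hy, hy1, -⟩ a ha b hb
    by_cases hxy : x = y
    · subst hxy
      obtain ⟨r, hr, rfl⟩ := (isRoot_iff hp M.toCoxeterSystem x).1 hx.1
      rw [commutatorElement_eq_one_iff_mul_comm.2 (comm_self hp hr ha hb)]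
      exact one_mem _
    have hxh := RGD.ht_pos hx.1 hx.2
    have hyh := RGD.ht_pos hy.1 hy.2
    have h0 := comm_mem_ht hp M.toCoxeterSystem hx hy hxy ha hb
    have hk' : k = 0 ∨ k = 1 := by omega
    rcases hk' with rfl | rfl
    · refine RGD.Sup_mono ?_ h0
      rintro z ⟨hz, hzh⟩
      exact ⟨hz, fun _ => by linarith, by norm_num⟩
    · have hx2 := hx1 le_rfl
      have hy2 := hy1 le_rfl
      obtain ⟨s, hs, rfl⟩ := (isRoot_iff hp M.toCoxeterSystem x).1 hx.1
      obtain ⟨r, hr, rfl⟩ := (isRoot_iff hp M.toCoxeterSystem y).1 hy.1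
      have hne : s ≠ r := fun h => hxy (by rw [h])
      have hneg : s ≠ D.neg r := by
        intro h
        have h3 := hx.2
        rw [h, vec_neg hp hr] at h3
        have h1 : vec D l r = 0 := le_antisymm (by simpa using h3) hy.2
        rw [h1] at hyh
        simp [ht] at hyh
      refine comm_mem_sup hp hr hs hne hneg (fun c hc => Or.inl ?_) ha hb
      rw [CharP.intCast_eq_zero_iff K p]
      exact hN r hr s hs hy2 hx2 c hc
  · rw [Set.eq_empty_iff_forall_notMem]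
    rintro x ⟨-, -, h⟩
    exact absurd h (by norm_num)

/-- A subgroup generated by words is contained in the Chevalley group. -/
theorem genSubgroup_le_group (hp : IsType D l M) (Ws : Set (List (ℕ × K))) :
    D.genSubgroup K Ws ≤ D.group K := by
  unfold ChevalleyDatum.genSubgroup
  rw [Subgroup.closure_le]
  rintro g ⟨w, -, hg⟩
  have h1 : g = wordG hp.inList w := Units.ext (by rw [coe_wordG]; exact hg)
  rw [h1]
  exact wordG_mem hp _ _ fun c _ => xG_mem_group hp.inList _ _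

end Chev

end Cfsg.Agent.H71.Dl
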